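import Cfsg.Agent.H111.JM.EnvD
import Cfsg.Agent.H111.JM.PcData

/-!
# The keys of the pieces 24 to 27 (generated, helper111, S5580)
-/

set_option autoImplicit false
set_option maxRecDepth 100000

namespace Cfsg.Agent.H111.JM.PK

open Cfsg.Agent.H111.JM.Eng Cfsg.Agent.H111.JM.Pc Cfsg.Agent.H111.JM.Env

theorem k24 : pc24.chkD 112 LC LC LT (fun a M => Nat.beq (key 12159 24 M) a) ky24 = true := by decide +kernel

theorem k25 : pc25.chkD 112 LC LC LT (fun a M => Nat.beq (key 12159 24 M) a) ky25 = true := by decide +kernel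

theorem k26 : pc26.chkD 112 LC LC LT (fun a M => Nat.beq (key 12159 24 M) a) ky26 = true := by decide +kernel

theorem k27 : pc27.chkD 112 LC LC LT (fun a M => Nat.beq (key 12159 24 M) a) ky27 = true := by decide +kernel

end Cfsg.Agent.H111.JM.PK
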